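/-
Representations on which the elements of odd order act without fixed points.
-/
import Cfsg.Agent.Perm.Module
set_option autoImplicit false
set_option linter.unusedSectionVars false

namespace CF.HM
open Module

universe u
variable {Γ : Type*} [Group Γ]

/-- elements of odd order have no fixed points -/
def FPF {O V : Type*} [CommRing O] [AddCommGroup V] [Module O V] (σ : Representation O Γ V) : Prop :=
  ∀ g, Odd (orderOf g) → g ≠ 1 → ∀ v, σ g v = v → v = 0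

variable {K : Type*} [Field K] {V V' V'' : Type u} [AddCommGroup V] [Module K V] [AddCommGroup V'] [Module K V']
  [AddCommGroup V''] [Module K V''] {σ : Representation K Γ V} {σ' : Representation K Γ V'}
  {σ'' : Representation K Γ V''}

/-- irreducible -/
def Sim (σ : Representation K Γ V) : Prop :=
  Nontrivial V ∧ ∀ W : Submodule K V, (∀ g, W ≤ W.comap (σ g)) → W = ⊥ ∨ W = ⊤

theorem FPF.surj [FiniteDimensional K V] (h : FPF σ) {g : Γ} (o : Odd (orderOf g)) (g1 : g ≠ 1) (v : V) :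
    ∃ w, σ g w - w = v :=
  LinearMap.injective_iff_surjective.1 ((injective_iff_map_eq_zero (σ g - 1)).2
    fun v hv => h g o g1 v (sub_eq_zero.1 hv)) v

theorem FPF.of_surj [FiniteDimensional K V] (h : ∀ g, Odd (orderOf g) → g ≠ 1 → ∀ v, ∃ w, σ g w - w = v) :
    FPF σ := fun g o g1 v hv =>
  (injective_iff_map_eq_zero (σ g - 1)).1 (LinearMap.injective_iff_surjective.2 (h g o g1)) v (sub_eq_zero.2 hv)

theorem FPF.sub {O V : Type*} [CommRing O] [AddCommGroup V] [Module O V] {σ : Representation O Γ V} (h : FPF σ)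
    (W : Submodule O V) (k : ∀ g, W ≤ W.comap (σ g)) : FPF (σ.subrepresentation W k) :=
  fun g o g1 v hv => Subtype.ext (h g o g1 v (congrArg Subtype.val hv))

theorem FPF.quot [FiniteDimensional K V] (h : FPF σ) (W : Submodule K V) (k : ∀ g, W ≤ W.comap (σ g)) :
    FPF (σ.quotient W k) := FPF.of_surj fun g o g1 v => by
  obtain ⟨v, rfl⟩ := W.mkQ_surjective v
  obtain ⟨w, rfl⟩ := h.surj o g1 v
  exact ⟨W.mkQ w, rfl⟩

theorem FPF.dual [FiniteDimensional K V] (h : FPF σ) : FPF σ.dual := fun g o g1 f hf => by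
  ext v
  obtain ⟨w, rfl⟩ := h.surj (g := g⁻¹) (by rwa [orderOf_inv]) (inv_ne_one.2 g1) v
  rw [map_sub, LinearMap.zero_apply]
  exact sub_eq_zero.2 (LinearMap.congr_fun hf w)

theorem exists_sim [FiniteDimensional K V] [Nontrivial V] (σ : Representation K Γ V) :
    ∃ (W : Submodule K V) (k : ∀ g, W ≤ W.comap (σ g)), Sim (σ.subrepresentation W k) := by
  obtain ⟨W, ⟨h1, k⟩, mn⟩ := exists_minimal_of_wellFoundedLT
    (fun W : Submodule K V => W ≠ ⊥ ∧ ∀ g, W ≤ W.comap (σ g)) ⟨⊤, top_ne_bot, fun _ _ _ => trivial⟩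
  refine ⟨W, k, Submodule.nontrivial_iff_ne_bot.2 h1, fun X hX => or_iff_not_imp_left.2 fun n => ?_⟩
  have := mn (y := X.map W.subtype) ⟨fun e => n (Submodule.map_injective_of_injective W.injective_subtype
    (by rw [e, Submodule.map_bot])), by rintro g _ ⟨x, hx, rfl⟩; exact ⟨_, hX g hx, rfl⟩⟩ (W.map_subtype_le X)
  refine eq_top_iff.2 fun x _ => ?_
  obtain ⟨y, hy, e⟩ := this x.2
  exact (Subtype.ext e : y = x) ▸ hy

/-- an invariant trilinear form -/
def Tri (σ : Representation K Γ V) (σ' : Representation K Γ V') (σ'' : Representation K Γ V'')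
    (T : V →ₗ[K] V' →ₗ[K] V'' →ₗ[K] K) : Prop :=
  T ≠ 0 ∧ ∀ g a b c, T (σ g a) (σ' g b) (σ'' g c) = T a b c

theorem Tri.swap {T : V →ₗ[K] V' →ₗ[K] V'' →ₗ[K] K} (h : Tri σ σ' σ'' T) : Tri σ' σ σ'' T.flip :=
  ⟨fun e => h.1 (by ext a b c; exact congr($e b a c)), fun g a b c => h.2 g b a c⟩

theorem Tri.swap' {T : V →ₗ[K] V' →ₗ[K] V'' →ₗ[K] K} (h : Tri σ σ' σ'' T) :
    Tri σ σ'' σ' (LinearMap.lflip.toLinearMap ∘ₗ T) :=
  ⟨fun e => h.1 (by ext a b c; exact congr($e a c b)), fun g a b c => h.2 g a c b⟩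

theorem Tri.ker {T : V →ₗ[K] V' →ₗ[K] V'' →ₗ[K] K} (h : Tri σ σ' σ'' T) (g : Γ) :
    LinearMap.ker T ≤ (LinearMap.ker T).comap (σ g) := fun a ha => by
  ext b c
  have := h.2 g a (σ' g⁻¹ b) (σ'' g⁻¹ c)
  rw [Representation.self_inv_apply, Representation.self_inv_apply, LinearMap.mem_ker.1 ha] at this
  exact this

theorem Tri.inj {T : V →ₗ[K] V' →ₗ[K] V'' →ₗ[K] K} (h : Tri σ σ' σ'' T) (s : Sim σ) {a : V} (ha : T a = 0) :
    a = 0 := by
  have := (s.2 _ h.ker).resolve_right fun e => h.1 (LinearMap.ker_eq_top.1 e)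
  exact (Submodule.mem_bot K).1 (this ▸ ha)

theorem Tri.red [FiniteDimensional K V] {T : V →ₗ[K] V' →ₗ[K] V'' →ₗ[K] K} (h : Tri σ σ' σ'' T) (f : FPF σ) :
    ∃ (W : Type u) (_ : AddCommGroup W) (_ : Module K W) (_ : FiniteDimensional K W) (τ : Representation K Γ W)
      (T' : W →ₗ[K] V' →ₗ[K] V'' →ₗ[K] K), FPF τ ∧ Sim τ ∧ Tri τ σ' σ'' T' := by
  haveI := Submodule.Quotient.nontrivial_iff.2 fun e => h.1 (LinearMap.ker_eq_top.1 e)
  obtain ⟨W, k, s⟩ := exists_sim (σ.quotient _ h.ker)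
  let Tq := Submodule.liftQ (M₂ := V' →ₗ[K] V'' →ₗ[K] K) (LinearMap.ker T) T le_rfl
  refine ⟨W, _, _, inferInstance, _, Tq ∘ₗ W.subtype, (f.quot _ _).sub _ _, s,
    fun e => ?_, fun g ⟨a, ha⟩ b c => ?_⟩
  · haveI := s.1
    obtain ⟨⟨w, hw⟩, ne⟩ := exists_ne (0 : W)
    obtain ⟨a, rfl⟩ := (LinearMap.ker T).mkQ_surjective w
    exact ne (Subtype.ext ((Submodule.Quotient.mk_eq_zero _).2 (LinearMap.congr_fun e ⟨_, hw⟩)))
  · obtain ⟨a, rfl⟩ := (LinearMap.ker T).mkQ_surjective a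
    exact h.2 g a b c

end CF.HM
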