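/-
Rank one groups in characteristic two: spaces of matrix coefficients.
-/
import Cfsg.Agent.HM.Rep
set_option autoImplicit false
set_option linter.unusedSectionVars false

namespace CF.HM
open Module Finset Submodule

/-- the data of a rank one group with its natural module -/
structure Dat (Γ : Type*) [Group Γ] (F : Type) [Field F] [Fintype F] (d : ℕ) where
  ρ : Γ →* Matrix (Fin d) (Fin d) F
  i0 : Fin d
  i1 : Fin d
  n : ℕ
  U : Subgroup Γ
  h : Fˣ →* Γ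
  t : Γ
  ω : Fin d → Fˣ → F
  x : Γ
  p : ℕ
  z : F → Γ
  n2 : 2 ≤ n
  hF : Fintype.card F = 2 ^ n
  pU : IsPGroup 2 U
  cU : Nat.card U = d ^ n
  hU : ∀ κ, ∀ u ∈ U, (h κ)⁻¹ * u * h κ ∈ U
  ht : ∀ κ, h κ * t = t * h κ⁻¹
  bru : ∀ g, (∃ u ∈ U, ∃ κ, g = u * h κ) ∨ ∃ u ∈ U, ∃ u' ∈ U, ∃ κ, g = u * t * u' * h κ
  col : ∀ u ∈ U, ∀ j, ρ u j i0 = (1 : Matrix _ _ F) j i0
  row : ∀ u ∈ U, ∀ j, ρ u i1 j = (1 : Matrix _ _ F) i1 j
  ρh : ∀ κ, ρ (h κ) = Matrix.diagonal fun j => ω j κ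
  ω0 : ∀ κ, ω i0 κ = κ
  ρt : ρ t i1 i0 = 1
  ne : i1 ≠ i0
  sep : ∀ u ∈ U, u ≠ 1 → ρ (t⁻¹ * u * t) i1 i0 ≠ 0
  p3 : 3 ≤ p
  po : Odd p
  xp : x ^ p = 1
  eig : ∀ τ : AlgebraicClosure F, τ ^ p = 1 → τ ≠ 1 →
    ((ρ x).map (algebraMap F (AlgebraicClosure F)) - Matrix.scalar _ τ).det = 0
  zadd : ∀ a b, z (a + b) = z a * z b
  hz : ∀ κ a, h κ * z a = z (κ ^ 2 * a) * h κ
  cz : ∀ a, ρ (t⁻¹ * z a * t) i1 i0 = a
  w1 : ∀ j, ∃ κ, ω j κ ≠ 1
  w2 : ∀ j, (∀ κ, ω j κ = κ) ∨ (∀ κ, ω j κ * κ = 1) ∨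
    ∃ θ : F →+* F, (∀ κ, ω j κ * κ = θ κ) ∨ ∀ κ, ω j κ * θ κ = κ

namespace Dat
variable {Γ : Type*} [Group Γ] [Finite Γ] {F : Type} [Field F] [Fintype F] {d : ℕ} (D : Dat Γ F d)

local notation "𝐊" => AlgebraicClosure F
local notation "ι" => algebraMap F (AlgebraicClosure F)

include D in
theorem charP : CharP F 2 := by
  obtain ⟨p, hp⟩ := CharP.exists F
  obtain ⟨m, h, e⟩ := FiniteField.card F p
  have := D.n2
  rwa [(Nat.prime_dvd_prime_iff_eq h Nat.prime_two).1 (h.dvd_of_dvd_pow (by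
    rw [← D.hF, e]; exact dvd_pow_self _ m.ne_zero))] at hp

/-- the corner entry -/
def c (g : Γ) : F := D.ρ g D.i1 D.i0

variable {D} {g u : Γ}

theorem c_mul_u (hu : u ∈ D.U) : D.c (g * u) = D.c g := by
  simp [c, Matrix.mul_apply, D.col u hu, Matrix.one_apply]

theorem c_u_mul (hu : u ∈ D.U) : D.c (u * g) = D.c g := by
  simp [c, Matrix.mul_apply, D.row u hu, Matrix.one_apply]

theorem c_mul_h (κ : Fˣ) : D.c (g * D.h κ) = D.c g * κ := by
  simp [c, D.ρh, D.ω0]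

theorem c_one : D.c 1 = 0 := by simp [c, Matrix.one_apply_ne D.ne]

variable (D)

/-- twisted matrix coefficients -/
noncomputable def e (i : ℕ) (j : Fin d) (y : Γ) : 𝐊 := ι (D.ρ y D.i1 j) ^ 2 ^ i

/-- basic products -/
noncomputable def b (S : Finset ℕ) (J : S → Fin d) : Γ → 𝐊 := ∏ i : S, D.e i (J i)

/-- pure tensors -/
noncomputable def pt (S : Finset ℕ) (w : S → Fin d → 𝐊) (y : Γ) : 𝐊 :=
  ∏ i : S, (∑ j, ι (D.ρ y D.i1 j) * w i j) ^ 2 ^ (i : ℕ)

theorem pt_eq (S : Finset ℕ) (w : S → Fin d → 𝐊) :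
    D.pt S w = ∑ J : S → Fin d, (∏ i : S, w i (J i) ^ 2 ^ (i : ℕ)) • D.b S J := by
  haveI := D.charP
  ext y
  simp only [pt, sum_pow_char_pow, mul_pow, prod_univ_sum, Fintype.piFinset_univ, Finset.sum_apply,
    Pi.smul_apply, b, Finset.prod_apply, e, smul_eq_mul, prod_mul_distrib, mul_comm]

/-- translates of the highest weight function -/
noncomputable def tr (S : Finset ℕ) (g y : Γ) : 𝐊 := ι (D.c (y * g)) ^ ∑ i ∈ S, 2 ^ i

theorem tr_eq (S : Finset ℕ) (g : Γ) : D.tr S g = D.pt S fun _ j => ι (D.ρ g j D.i0) := by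
  ext y
  simp only [tr, pt, c, map_mul, Matrix.mul_apply, map_sum, ← prod_pow_eq_pow_sum]
  exact (prod_coe_sort S _).symm

theorem tr_mem (S : Finset ℕ) (g : Γ) : D.tr S g ∈ span 𝐊 (Set.range (D.b S)) := by
  rw [tr_eq, pt_eq]
  exact sum_mem fun J _ => smul_mem _ _ (subset_span ⟨J, rfl⟩)

theorem li_full : LinearIndependent 𝐊 fun u : D.U => D.tr (range D.n) (u * D.t) := by
  classical
  haveI := Fintype.ofFinite D.U
  have n2 := D.n2
  have s : ∑ i ∈ range D.n, 2 ^ i = Fintype.card F - 1 := by rw [D.hF, Nat.geomSum_eq le_rfl]; simp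
  have v : ∀ g y, D.tr (range D.n) g y = if D.c (y * g) = 0 then 0 else 1 := fun g y => by
    rw [tr, s, ← map_pow]
    split_ifs with h
    · rw [h, zero_pow (Nat.sub_ne_zero_of_lt Fintype.one_lt_card), map_zero]
    · rw [FiniteField.pow_card_sub_one_eq_one _ h, map_one]
  refine Fintype.linearIndependent_iff.2 fun a ha u => ?_
  have h1 := congrFun ha 1
  have h2 := congrFun ha (D.t⁻¹ * (u : Γ)⁻¹)
  simp only [Finset.sum_apply, Pi.smul_apply, v, smul_eq_mul, Pi.zero_apply] at h1 h2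
  have k1 : ∀ u : D.U, D.c (1 * (u * D.t)) ≠ 0 := fun u => by
    rw [one_mul, c_u_mul u.2, c, D.ρt]; exact one_ne_zero
  simp only [k1, if_false, mul_one] at h1
  rw [← add_sum_erase _ _ (mem_univ u)] at h1 h2
  rw [if_pos (by simp [mul_assoc, c_one]), mul_zero, zero_add, sum_congr rfl fun u' hu' => by
    rw [if_neg (by
      have := D.sep _ (u⁻¹ * u').2 fun e => ne_of_mem_erase hu' (inv_mul_eq_one.1 (Subtype.ext e)).symm
      simpa [c, mul_assoc] using this), mul_one]] at h2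
  rwa [h2, add_zero] at h1

theorem dim {S : Finset ℕ} (hS : S ⊆ range D.n) :
    span 𝐊 (Set.range fun u : D.U => D.tr S (u * D.t)) = span 𝐊 (Set.range (D.b S)) ∧
      LinearIndependent 𝐊 (D.b S) := by
  classical
  haveI := Fintype.ofFinite D.U
  set L := span 𝐊 (Set.range fun u : D.U => D.tr S (u * D.t))
  have le : L ≤ span 𝐊 (Set.range (D.b S)) := span_le.2 (Set.range_subset_iff.2 fun u => D.tr_mem _ _)
  haveI : FiniteDimensional 𝐊 (span 𝐊 (Set.range (D.b S))) := FiniteDimensional.span_of_finite _ (Set.finite_range _)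
  haveI : FiniteDimensional 𝐊 L := finiteDimensional_of_le le
  let β := finBasis 𝐊 L
  let f : Fin (finrank 𝐊 L) × (↥(range D.n \ S) → Fin d) → Γ → 𝐊 := fun a => (β a.1 : Γ → 𝐊) * D.b _ a.2
  have m : ∀ u : D.U, D.tr (range D.n) (u * D.t) ∈ span 𝐊 (Set.range f) := fun u => by
    have e : D.tr (range D.n) (u * D.t) = D.tr S (u * D.t) * D.tr (range D.n \ S) (u * D.t) := by
      ext y; simp only [tr, Pi.mul_apply]; rw [← pow_add, add_comm, sum_sdiff hS]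
    have : _ = D.tr S (u * D.t) := congrArg Subtype.val (β.sum_repr ⟨_, subset_span ⟨u, rfl⟩⟩)
    rw [e, tr_eq D (_ \ _), pt_eq, ← this, AddSubmonoidClass.coe_finsetSum, sum_mul_sum]
    exact sum_mem fun a _ => sum_mem fun J _ => by
      rw [Submodule.coe_smul, smul_mul_smul_comm]; exact smul_mem _ _ (subset_span ⟨(a, J), rfl⟩)
  have h1 : d ^ D.n ≤ finrank 𝐊 L * d ^ (D.n - S.card) := by
    haveI : FiniteDimensional 𝐊 (span 𝐊 (Set.range f)) := FiniteDimensional.span_of_finite _ (Set.finite_range _)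
    have a := (linearIndependent_iff_card_eq_finrank_span.1 D.li_full).le.trans
      ((finrank_mono (span_le.2 (Set.range_subset_iff.2 m))).trans (finrank_range_le_card f))
    rwa [← Nat.card_eq_fintype_card, D.cU, Fintype.card_prod, Fintype.card_fin, Fintype.card_fun,
      Fintype.card_fin, Fintype.card_coe, card_sdiff_of_subset hS, card_range] at a
  have h2 : finrank 𝐊 (span 𝐊 (Set.range (D.b S))) ≤ Fintype.card (S → Fin d) := finrank_range_le_card _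
  have h3 : Fintype.card (S → Fin d) ≤ finrank 𝐊 L := by
    have := card_le_card hS
    rw [card_range] at this
    rw [← Nat.add_sub_cancel' this, pow_add, Nat.add_sub_cancel_left] at h1
    rw [Fintype.card_fun, Fintype.card_fin, Fintype.card_coe]
    exact Nat.le_of_mul_le_mul_right h1 (pow_pos D.i0.pos _)
  exact ⟨eq_of_le_of_finrank_le le (h2.trans h3),
    linearIndependent_iff_card_le_finrank_span.2 (h3.trans (finrank_mono le))⟩

theorem pt_ne {S : Finset ℕ} (hS : S ⊆ range D.n) {w : S → Fin d → 𝐊} (hw : ∀ i, w i ≠ 0) : D.pt S w ≠ 0 := by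
  intro e
  choose J hJ using fun i => Function.ne_iff.1 (hw i)
  rw [pt_eq] at e
  exact prod_ne_zero_iff.2 (fun i _ => pow_ne_zero _ (hJ i)) (Fintype.linearIndependent_iff.1 (D.dim hS).2 _ e J)

theorem exists_fixed {S : Finset ℕ} (hS : S ⊆ range D.n) (h2 : 2 ≤ S.card) :
    ∃ f ∈ span 𝐊 (Set.range (D.b S)), f ≠ 0 ∧ ∀ y, f (y * D.x) = f y := by
  classical
  haveI := D.charP
  have p3 := D.p3
  obtain ⟨ξ, hξ⟩ : ∃ ξ : 𝐊, IsPrimitiveRoot ξ D.p := by
    haveI : NeZero (D.p : 𝐊) := ⟨fun e => (Nat.not_even_iff_odd.2 D.po)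
      (even_iff_two_dvd.2 ((CharP.cast_eq_zero_iff 𝐊 2 _).1 e))⟩
    haveI : NeZero D.p := ⟨by omega⟩
    exact HasEnoughRootsOfUnity.exists_primitiveRoot 𝐊 D.p
  have x1 := hξ.ne_one (by omega)
  have x0 := hξ.ne_zero (by omega)
  have x2 : ξ⁻¹ ≠ ξ := fun e => hξ.pow_ne_one_of_pos_of_lt two_ne_zero (by omega)
    (by rw [sq]; nth_rewrite 1 [← e]; exact inv_mul_cancel₀ x0)
  have key : ∀ T : Finset ℕ, T.Nonempty → ∀ τ : 𝐊, τ ^ D.p = 1 → τ ≠ 1 →
      ∃ μ : ℕ → 𝐊, (∀ i, μ i ^ D.p = 1 ∧ μ i ≠ 1) ∧ ∏ i ∈ T, μ i = τ := by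
    intro T hT
    induction hT using Finset.Nonempty.cons_induction with
    | singleton a => exact fun τ h1 h2 => ⟨fun _ => τ, fun _ => ⟨h1, h2⟩, by simp⟩
    | cons a s ha _ ih =>
      intro τ h1 h2
      obtain ⟨η, e1, e2, e3⟩ : ∃ η : 𝐊, η ^ D.p = 1 ∧ η ≠ 1 ∧ η ≠ τ := by
        by_cases h : ξ = τ
        · exact ⟨ξ⁻¹, hξ.inv.pow_eq_one, hξ.inv.ne_one (by omega), h ▸ x2⟩
        · exact ⟨ξ, hξ.pow_eq_one, x1, h⟩
      have e0 : η ≠ 0 := by rintro rfl; rw [zero_pow (by omega)] at e1; exact zero_ne_one e1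
      obtain ⟨μ, m1, m2⟩ := ih (τ / η) (by rw [div_pow, h1, e1, div_one]) fun e => e3 (eq_of_div_eq_one e).symm
      refine ⟨Function.update μ a η, fun i => ?_, ?_⟩
      · by_cases h : i = a
        · rw [h, Function.update_self]; exact ⟨e1, e2⟩
        · rw [Function.update_of_ne h]; exact m1 i
      · rw [prod_cons, Function.update_self, prod_update_of_notMem ha, m2, mul_div_cancel₀ _ e0]
  obtain ⟨a, ha⟩ := card_pos.1 (zero_lt_two.trans_le h2)
  obtain ⟨μ, m1, m2⟩ := key (S.erase a) (card_pos.1 (by rw [card_erase_of_mem ha]; omega)) ξ⁻¹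
    hξ.inv.pow_eq_one (hξ.inv.ne_one (by omega))
  obtain ⟨ν, n1, n2⟩ : ∃ ν : ℕ → 𝐊, (∀ i, ν i ^ D.p = 1 ∧ ν i ≠ 1) ∧ ∏ i ∈ S, ν i = 1 := by
    refine ⟨Function.update μ a ξ, fun i => ?_, ?_⟩
    · by_cases h : i = a
      · rw [h, Function.update_self]; exact ⟨hξ.pow_eq_one, x1⟩
      · rw [Function.update_of_ne h]; exact m1 i
    · rw [prod_update_of_mem ha, sdiff_singleton_eq_erase, m2, mul_inv_cancel₀ x0]
  have ev : ∀ i : S, ∃ w : Fin d → 𝐊, w ≠ 0 ∧ ∀ y, (∑ j, ι (D.ρ (y * D.x) D.i1 j) * w j) ^ 2 ^ (i : ℕ) =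
      ν i * (∑ j, ι (D.ρ y D.i1 j) * w j) ^ 2 ^ (i : ℕ) := fun i => by
    obtain ⟨τ, hτ⟩ := (bijective_iterateFrobenius 𝐊 2 i).2 (ν i)
    obtain ⟨w, w0, hw⟩ := Matrix.exists_mulVec_eq_zero_iff.2 (D.eig τ ((iterateFrobenius 𝐊 2 i).injective
      (by rw [map_pow, hτ, (n1 i).1, map_one])) fun e => (n1 i).2 (by rw [← hτ, e, map_one]))
    refine ⟨w, w0, fun y => ?_⟩
    rw [Matrix.sub_mulVec, sub_eq_zero] at hw
    rw [← hτ, iterateFrobenius_def, ← mul_pow]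
    congr 1
    have := congrArg (fun v => ∑ j, ι (D.ρ y D.i1 j) * v j) hw
    simp only [Matrix.mulVec, dotProduct, Matrix.map_apply, mul_sum, Matrix.scalar_apply, Matrix.diagonal_apply,
      ite_mul, zero_mul, sum_ite_eq, mem_univ, if_true] at this
    simp only [map_mul, Matrix.mul_apply, map_sum, sum_mul, mul_sum, mul_assoc]
    rw [sum_comm, this]
    exact sum_congr rfl fun j _ => mul_left_comm _ _ _
  choose w w0 hw using ev
  refine ⟨D.pt S w, ?_, D.pt_ne hS w0, fun y => ?_⟩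
  · rw [pt_eq]; exact sum_mem fun J _ => smul_mem _ _ (subset_span ⟨J, rfl⟩)
  · simp only [pt, hw, prod_mul_distrib]
    rw [prod_coe_sort S ν, n2, one_mul]

end Dat
end CF.HM
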