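/-
Irreducible fixed point free modules are twists of the natural module.
-/
import Cfsg.Agent.HM.Fun
set_option autoImplicit false
set_option linter.unusedSectionVars false

namespace CF.HM
open Module Finset Submodule

universe u
variable {Γ : Type*} [Group Γ] [Finite Γ] {F : Type} [Field F] [Fintype F] {d : ℕ} (D : Dat Γ F d)

local notation "𝐊" => AlgebraicClosure F
local notation "ι" => algebraMap F (AlgebraicClosure F)

variable {W W' W'' : Type u} [AddCommGroup W] [Module (AlgebraicClosure F) W] [AddCommGroup W']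
  [Module (AlgebraicClosure F) W'] [AddCommGroup W''] [Module (AlgebraicClosure F) W'']
  {σ : Representation (AlgebraicClosure F) Γ W} {σ' : Representation (AlgebraicClosure F) Γ W'}
  {σ'' : Representation (AlgebraicClosure F) Γ W''}

/-- highest weight data -/
structure HW (σ : Representation (AlgebraicClosure F) Γ W) (φ : F →+* AlgebraicClosure F) (v : W) : Prop where
  l : ∃ l : Dual 𝐊 W, ∀ g, l (σ g v) = φ (D.c g)
  v0 : v ≠ 0
  vu : ∀ u ∈ D.U, σ u v = v
  vh : ∀ κ, σ (D.h κ) v = φ κ • v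
  sp : span 𝐊 (Set.range fun u : D.U => σ (u * D.t) v) = ⊤
  wt : ∃ w : Fin d → W, span 𝐊 (Set.range w) = ⊤ ∧ ∀ j κ, σ (D.h κ) (w j) = φ (D.ω j κ) • w j

namespace Dat

theorem h_odd (κ : Fˣ) : Odd (orderOf (D.h κ)) := by
  have := D.n2
  refine Odd.of_dvd_nat ?_ ((orderOf_map_dvd _ _).trans (orderOf_dvd_natCard κ))
  rw [Nat.card_units, Nat.card_eq_fintype_card, D.hF]
  exact Nat.Even.sub_odd Nat.one_le_two_pow (Nat.even_pow.2 ⟨even_two, by omega⟩) odd_one

theorem h_ne {κ : Fˣ} (h : κ ≠ 1) : D.h κ ≠ 1 := fun e => by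
  have := congrArg (fun M => M D.i0 D.i0) (D.ρh κ)
  simp only [e, map_one, Matrix.one_apply_eq, Matrix.diagonal_apply_eq, D.ω0] at this
  exact h (Units.ext this.symm)

include D in
theorem exists_ne : ∃ κ : Fˣ, κ ≠ 1 := by
  have := Nat.pow_le_pow_right two_pos D.n2
  haveI : Nontrivial Fˣ := Finite.one_lt_card_iff_nontrivial.1 (by
    rw [Nat.card_units, Nat.card_eq_fintype_card, D.hF]; omega)
  exact _root_.exists_ne 1

theorem x_ne : D.x ≠ 1 := fun e => by
  haveI := D.charP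
  have p3 := D.p3
  haveI : NeZero (D.p : 𝐊) := ⟨fun e => (Nat.not_even_iff_odd.2 D.po)
    (even_iff_two_dvd.2 ((CharP.cast_eq_zero_iff 𝐊 2 _).1 e))⟩
  haveI : NeZero D.p := ⟨by omega⟩
  obtain ⟨ξ, hξ⟩ := HasEnoughRootsOfUnity.exists_primitiveRoot 𝐊 D.p
  have x1 := hξ.ne_one (by omega)
  have := D.eig ξ hξ.pow_eq_one x1
  rw [e, map_one, Matrix.map_one _ (map_zero _) (map_one _), ← map_one (Matrix.scalar (Fin d)), ← map_sub,
    Matrix.scalar_apply, Matrix.det_diagonal, prod_const] at this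
  exact x1 (sub_eq_zero.1 (pow_eq_zero_iff'.1 this).1).symm

theorem eigen [FiniteDimensional 𝐊 W] [Nontrivial W] (f : FPF σ) :
    ∃ v : W, v ≠ 0 ∧ (∀ u ∈ D.U, σ u v = v) ∧ ∃ k, k ≠ 0 ∧ k < 2 ^ D.n ∧ (∀ κ, σ (D.h κ) v = ι κ ^ k • v) ∧
      σ D.t v ∉ span 𝐊 {v} := by
  haveI := D.charP
  let C : Submodule 𝐊 W := ⨅ u : D.U, LinearMap.ker (σ u - 1)
  have mC : ∀ v, v ∈ C ↔ ∀ u ∈ D.U, σ u v = v := fun v => by simp [C, sub_eq_zero]
  obtain ⟨v0, -, h0, h1⟩ := CF.Perm.exists_fixed_vector D.pU (σ.comp D.U.subtype) ⊤ (fun _ _ _ => trivial)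
    top_ne_bot
  haveI : Nontrivial C := ⟨⟨⟨v0, (mC _).2 fun u hu => h1 ⟨u, hu⟩⟩, 0, fun e => h0 (congrArg Subtype.val e)⟩⟩
  obtain ⟨κ, hκ⟩ := IsCyclic.exists_generator (α := Fˣ)
  have inv : ∀ v ∈ C, σ (D.h κ) v ∈ C := fun v hv => (mC _).2 fun u hu => by
    nth_rewrite 2 [← (mC _).1 hv _ (D.hU κ u hu)]
    simp only [← End.mul_apply, ← map_mul, ← mul_assoc, mul_inv_cancel, one_mul]
  obtain ⟨μ, hμ⟩ := End.exists_eigenvalue ((σ (D.h κ)).restrict inv)
  obtain ⟨⟨v, hv⟩, e⟩ := hμ.exists_hasEigenvector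
  have v0 : v ≠ 0 := fun k => e.2 (Subtype.ext k)
  have e1 : σ (D.h κ) v = μ • v := congrArg Subtype.val e.apply_eq_smul
  have e2 : ∀ m : ℕ, σ (D.h (κ ^ m)) v = μ ^ m • v := fun m => by
    induction m with
    | zero => simp
    | succ m ih => rw [pow_succ, map_mul, map_mul, End.mul_apply, e1, map_smul, ih, smul_smul, pow_succ']
  have o : orderOf κ = 2 ^ D.n - 1 := by
    rw [orderOf_eq_card_of_forall_mem_zpowers hκ, Nat.card_units, Nat.card_eq_fintype_card, D.hF]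
  have pr : IsPrimitiveRoot (ι κ) (orderOf κ) :=
    (IsPrimitiveRoot.coe_units_iff.2 (IsPrimitiveRoot.orderOf κ)).map_of_injective (algebraMap F 𝐊).injective
  haveI : NeZero (orderOf κ) := ⟨(orderOf_pos κ).ne'⟩
  obtain ⟨k, k1, k2⟩ := pr.eq_pow_of_pow_eq_one (ξ := μ) (by
    have := e2 (orderOf κ)
    rw [pow_orderOf_eq_one, map_one, map_one, End.one_apply] at this
    exact (smul_left_injective 𝐊 v0 ((one_smul _ _).trans this)).symm)
  have κ1 : κ ≠ 1 := fun e => by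
    obtain ⟨a, ha⟩ := D.exists_ne
    obtain ⟨m, rfl⟩ := hκ a
    simp [e] at ha
  have μ1 : μ ≠ 1 := fun e => v0 (f _ (D.h_odd κ) (D.h_ne κ1) v (by rw [e1, e, one_smul]))
  have all : ∀ a : Fˣ, σ (D.h a) v = ι a ^ k • v := fun a => by
    obtain ⟨m, rfl⟩ := mem_powers_iff_mem_zpowers.2 (hκ a)
    rw [e2, ← k2, Units.val_pow_eq_pow_val, map_pow, pow_right_comm]
  refine ⟨v, v0, (mC _).1 hv, k, fun e => μ1 (by rw [← k2, e, pow_zero]), by omega, all, fun m => ?_⟩
  obtain ⟨a, ha⟩ := mem_span_singleton.1 m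
  have := congr(σ $(D.ht κ) (σ (D.h κ) v))
  simp only [map_mul, End.mul_apply, map_inv, Representation.inv_self_apply] at this
  simp only [e1, map_smul, ← ha, smul_smul] at this
  have a0 : a ≠ 0 := fun e => v0 (by
    rw [e, zero_smul] at ha
    rw [← σ.inv_self_apply D.t v, ← ha, map_zero])
  have e3 : μ * a * μ = a := smul_left_injective 𝐊 v0 this
  have := mul_left_cancel₀ a0 (show a * (μ ^ 2) = a * 1 by linear_combination e3)
  exact μ1 ((frobenius 𝐊 2).injective (by rw [frobenius_def, this, map_one]))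

theorem exists_hw [FiniteDimensional 𝐊 W] (s : Sim σ) (f : FPF σ) : ∃ φ v, HW D σ φ v := by
  classical
  haveI := D.charP
  haveI := s.1
  obtain ⟨v, v0, vu, k, k0, kn, vh, tv⟩ := D.eigen f
  have gen : ∀ X : Submodule 𝐊 W, (∀ g, σ g v ∈ X) → X = ⊤ := fun X hX => by
    have := (s.2 (span 𝐊 (Set.range fun g => σ g v)) fun g => span_le.2 (by
      rintro _ ⟨a, rfl⟩; exact subset_span ⟨g * a, by simp⟩)).resolve_left fun e =>
        v0 ((mem_bot 𝐊).1 (e ▸ subset_span ⟨1, by simp⟩))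
    exact eq_top_iff.2 (this ▸ span_le.2 (Set.range_subset_iff.2 hX))
  obtain ⟨l0, l1, l2, l3⟩ := CF.Perm.exists_fixed_vector D.pU (σ.dual.comp D.U.subtype)
    (span 𝐊 {v}).dualAnnihilator (fun u l hl => (mem_dualAnnihilator _).2 fun w hw => by
      obtain ⟨a, rfl⟩ := mem_span_singleton.1 hw
      have := (mem_dualAnnihilator _).1 hl _ (mem_span_singleton_self v)
      change l (σ (u : Γ)⁻¹ (a • v)) = 0
      rw [map_smul, vu _ (inv_mem u.2), map_smul, this, smul_zero])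
    fun e => tv (dualAnnihilator_eq_bot_iff.1 e ▸ mem_top)
  have lv : l0 v = 0 := (mem_dualAnnihilator _).1 l1 _ (mem_span_singleton_self v)
  have lu : ∀ u ∈ D.U, ∀ w, l0 (σ u w) = l0 w := fun u hu w => by
    have := LinearMap.congr_fun (l3 ⟨u⁻¹, inv_mem hu⟩) w
    change l0 (σ (u⁻¹)⁻¹ w) = _ at this
    rwa [inv_inv] at this
  have lg : ∀ g, l0 (σ g v) = ι (D.c g) ^ k * l0 (σ D.t v) := fun g => by
    rcases D.bru g with ⟨u, hu, κ, rfl⟩ | ⟨u, hu, u', hu', κ, rfl⟩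
    · rw [c_mul_h, ← mul_one u, c_u_mul hu, c_one]
      simp [lu u hu, vh, lv, k0]
    · rw [c_mul_h, c_mul_u hu', c_u_mul hu, c, D.ρt]
      simp [lu u hu, vh, vu u' hu']
  have lt : l0 (σ D.t v) ≠ 0 := fun e => l2 (LinearMap.ker_eq_top.1 (gen _ fun g => by
    rw [LinearMap.mem_ker, lg, e, mul_zero]))
  obtain ⟨l, hl⟩ : ∃ l : Dual 𝐊 W, ∀ g, l (σ g v) = ι (D.c g) ^ k :=
    ⟨(l0 (σ D.t v))⁻¹ • l0, fun g => by rw [LinearMap.smul_apply, lg g, smul_eq_mul]; field_simp⟩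
  let Φ : W →ₗ[𝐊] Γ → 𝐊 := LinearMap.pi fun y => l ∘ₗ σ y
  have hΦ : ∀ g w y, Φ (σ g w) y = Φ w (y * g) := fun g w y => by simp [Φ]
  have inj : Function.Injective Φ := LinearMap.ker_eq_bot.1 ((s.2 (LinearMap.ker Φ) fun g w hw =>
    funext fun y => (hΦ g w y).trans (congrFun hw _)).resolve_right fun e => by
      have : Φ v = 0 := (e ▸ mem_top : v ∈ LinearMap.ker Φ)
      have := congrFun this D.t
      simp [Φ, hl, c, D.ρt] at this)
  obtain ⟨S, hS, rfl⟩ : ∃ S ⊆ range D.n, ∑ i ∈ S, 2 ^ i = k := ⟨_, fun i hi => mem_range.2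
    ((Nat.pow_lt_pow_iff_right one_lt_two).1 ((Nat.two_pow_le_of_mem_bitIndices (List.mem_toFinset.1 hi)).trans_lt
      kn)), sum_toFinset_bitIndices_two_pow k⟩
  have tr : ∀ g, Φ (σ g v) = D.tr S g := fun g => funext fun y => by rw [hΦ]; exact hl _
  have sp : span 𝐊 (Set.range fun u : D.U => σ (u * D.t) v) = ⊤ := gen _ fun g => by
    have := D.tr_mem S g
    rw [← (D.dim hS).1, ← tr, show (fun u : D.U => D.tr S (u * D.t)) = Φ ∘ fun u : D.U => σ (u * D.t) v from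
      funext fun u => (tr _).symm, Set.range_comp, ← map_span] at this
    obtain ⟨w, hw, e⟩ := this
    exact inj e ▸ hw
  have rg : LinearMap.range Φ = span 𝐊 (Set.range (D.b S)) := by
    rw [← Submodule.map_top, ← sp, map_span, ← Set.range_comp, ← (D.dim hS).1]
    exact congrArg _ (congrArg _ (funext fun u => tr _))
  have S1 : S.card = 1 := by
    by_contra c
    obtain ⟨_, m, n, e⟩ := D.exists_fixed hS (by
      have := card_pos.2 (nonempty_of_ne_empty fun e : S = ∅ => k0 (by simp [e])); omega)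
    obtain ⟨w, rfl⟩ := rg ▸ m
    exact n (by rw [f D.x (D.po.of_dvd_nat (orderOf_dvd_of_pow_eq_one D.xp)) D.x_ne w
      (inj (funext fun y => (hΦ _ _ _).trans (e y))), map_zero])
  obtain ⟨i, rfl⟩ := card_eq_one.1 S1
  rw [sum_singleton] at vh hl
  have bb : ∀ J, D.b {i} J = D.e i (J ⟨i, mem_singleton_self i⟩) := fun J => by
    rw [b, Fintype.prod_unique]; rfl
  have ex : ∀ j, ∃ w, Φ w = D.e i j := fun j => rg.ge (subset_span ⟨fun _ => j, bb _⟩)
  choose w hw using ex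
  refine ⟨(iterateFrobenius 𝐊 2 i).comp ι, v, ⟨l, hl⟩, v0, vu, vh, sp, w, eq_top_iff.2 fun a _ => ?_,
    fun j κ => inj (funext fun y => ?_)⟩
  · have : span 𝐊 (Set.range (D.b {i})) ≤ (span 𝐊 (Set.range w)).map Φ := span_le.2 (by
      rintro _ ⟨J, rfl⟩; exact ⟨_, subset_span ⟨_, rfl⟩, (hw _).trans (bb J).symm⟩)
    obtain ⟨b, hb, e⟩ := this (rg.le ⟨a, rfl⟩)
    exact inj e ▸ hb
  · rw [hΦ, map_smul, Pi.smul_apply, hw]
    simp [e, D.ρh, mul_pow, iterateFrobenius_def, mul_comm]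

variable {D} {φ φ' φ'' : F →+* AlgebraicClosure F} {v : W} {v' : W'} {v'' : W''}

theorem rel {T : W →ₗ[𝐊] W' →ₗ[𝐊] W'' →ₗ[𝐊] 𝐊} (h : Tri σ σ' σ'' T) (s : Sim σ) (a : HW D σ φ v)
    (b : HW D σ' φ' v') (c : HW D σ'' φ'' v'') : ∃ j, ∀ κ : Fˣ, φ κ * φ'' (D.ω j κ) = φ' κ := by
  obtain ⟨w, w1, w2⟩ := c.wt
  have : ∃ j, T v (σ' D.t v') (w j) ≠ 0 := by
    by_contra! k
    have k1 : T v (σ' D.t v') = 0 := LinearMap.ext_on_range w1 k
    refine a.v0 (h.inj s (LinearMap.ext_on_range b.sp fun u => LinearMap.ext fun x => ?_))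
    rw [← h.2 (u : Γ)⁻¹, a.vu _ (inv_mem u.2), map_mul, End.mul_apply, Representation.inv_self_apply, k1]
    rfl
  obtain ⟨j, hj⟩ := this
  refine ⟨j, fun κ => ?_⟩
  have := h.2 (D.h κ) v (σ' D.t v') (w j)
  rw [← End.mul_apply, ← map_mul, D.ht, map_mul, End.mul_apply, a.vh, b.vh, w2] at this
  simp only [map_smul, LinearMap.smul_apply, smul_eq_mul, Units.val_inv_eq_inv_val, map_inv₀] at this
  have k : φ' κ ≠ 0 := (map_ne_zero φ').2 κ.ne_zero
  field_simp at this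
  linear_combination this

theorem two {A B : Type*} [Field A] [Field B] {α β γ δ : A →+* B} (h : ∀ κ : Aˣ, α κ * β κ = γ κ * δ κ) (x : A) :
    α x + β x = γ x + δ x := by
  have k : ∀ x, α x * β x = γ x * δ x := fun x => by
    rcases eq_or_ne x 0 with rfl | e
    · simp
    · exact h (Units.mk0 x e)
  have := k (x + 1)
  simp only [map_add, map_one] at this
  linear_combination this - k x

theorem one {A B : Type*} [Field A] [Field B] [CharP B 2] {α β γ : A →+* B} (h : ∀ κ : Aˣ, α κ * β κ = γ κ) :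
    α = β := by
  have k : ∀ x, α x * β x = γ x := fun x => by
    rcases eq_or_ne x 0 with rfl | e
    · simp
    · exact h (Units.mk0 x e)
  ext x
  have := k (x + 1)
  simp only [map_add, map_one] at this
  linear_combination this - k x - β x * CharTwo.two_eq_zero (R := B)

theorem four {A B : Type*} [Field A] [Field B] {α β γ δ : A →+* B} {r s : B} (h : ∀ x, α x + r * β x + s * γ x = δ x)
    (hr : r ≠ 0) (h1 : α ≠ β) (h2 : α ≠ γ) (h3 : β ≠ γ) : False := by
  have li := (linearIndependent_monoidHom A B).comp ![(α : A →* B), β, γ] (by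
    have k : ∀ {a b : A →+* B}, (a : A →* B) = b ↔ a = b := RingHom.coe_monoidHom_injective.eq_iff
    intro i j; fin_cases i <;> fin_cases j <;> simp [k, h1, h2, h3, h1.symm, h2.symm, h3.symm])
  refine h1 (RingHom.ext fun y => ?_)
  have := Fintype.linearIndependent_iff.1 li ![α y - δ y, r * (β y - δ y), s * (γ y - δ y)] (funext fun x => by
    have := h (x * y)
    simp only [map_mul] at this
    simp [Fin.sum_univ_three]
    linear_combination this - δ y * h x)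
  have a := this 0
  have b := this 1
  simp [hr] at a b
  linear_combination a - b

theorem not_tri_sim {T : W →ₗ[𝐊] W' →ₗ[𝐊] W'' →ₗ[𝐊] 𝐊} (h : Tri σ σ' σ'' T) (s : Sim σ) (s' : Sim σ')
    (a : HW D σ φ v) (b : HW D σ' φ' v') (c : HW D σ'' φ'' v'') : False := by
  haveI := D.charP
  have z : ∀ {α β : F →+* 𝐊}, (∃ j, ∀ κ : Fˣ, α κ * β (D.ω j κ) = α κ) → False := fun {α β} ⟨j, hj⟩ => by
    obtain ⟨κ, k⟩ := D.w1 j
    exact k (β.injective ((mul_eq_left₀ ((map_ne_zero α).2 κ.ne_zero)).1 (hj κ) |>.trans (map_one β).symm))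
  have h1 : φ ≠ φ' := fun e => z (by have := rel h s a b c; rwa [← e] at this)
  have h2 : φ ≠ φ'' := fun e => z (by have := rel h.swap' s a c b; rwa [← e] at this)
  have h3 : φ' ≠ φ'' := fun e => z (by have := rel h.swap.swap' s' b c a; rwa [← e] at this)
  obtain ⟨j, hj⟩ := rel h s a b c
  rcases D.w2 j with k | k | ⟨θ, k | k⟩
  · exact h2 (one fun κ => by rw [← hj κ, k])
  · exact h3 (one (γ := φ) fun κ => by rw [← hj κ, mul_assoc, ← map_mul, k, map_one, mul_one])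
  · have := two (α := φ') (β := φ'') (γ := φ) (δ := φ''.comp θ) fun κ => by
      rw [← hj κ, mul_assoc, ← map_mul, k]; rfl
    exact four (α := φ') (β := φ'') (γ := φ) (δ := φ''.comp θ) (r := 1) (s := -1)
      (fun x => by linear_combination this x) one_ne_zero h3 h1.symm h2.symm
  · have := two (α := φ) (β := φ'') (γ := φ') (δ := φ''.comp θ) fun κ => by
      rw [← hj κ, mul_assoc, RingHom.comp_apply, ← map_mul, k]
    exact four (α := φ) (β := φ'') (γ := φ') (δ := φ''.comp θ) (r := 1) (s := -1)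
      (fun x => by linear_combination this x) one_ne_zero h2 h1 h3.symm

include D in
theorem not_tri [FiniteDimensional 𝐊 W] [FiniteDimensional 𝐊 W'] [FiniteDimensional 𝐊 W'']
    {T : W →ₗ[𝐊] W' →ₗ[𝐊] W'' →ₗ[𝐊] 𝐊} (h : Tri σ σ' σ'' T) (f : FPF σ) (f' : FPF σ') (f'' : FPF σ'') : False := by
  obtain ⟨A, _, _, _, α, T1, a1, a2, h⟩ := h.red f
  obtain ⟨B, _, _, _, β, T2, b1, b2, h⟩ := h.swap.red f'
  obtain ⟨C, _, _, _, γ, T3, c1, c2, h⟩ := h.swap'.swap.red f''
  obtain ⟨_, _, a⟩ := D.exists_hw a2 a1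
  obtain ⟨_, _, b⟩ := D.exists_hw b2 b1
  obtain ⟨_, _, c⟩ := D.exists_hw c2 c1
  exact not_tri_sim h c2 b2 c b a

end Dat
end CF.HM
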