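/-
Fixed point free modules do not lift to characteristic four.
-/
import Cfsg.Agent.HM.Sim
set_option autoImplicit false
set_option linter.unusedSectionVars false

namespace CF.HM
open Module Finset

theorem exists_lift (K : Type) [Field K] [CharP K 2] :
    ∃ (O : Type) (_ : CommRing O) (_ : IsDomain O) (π : O →+* K) (τ : K →* O) (Q : Type) (_ : AddCommGroup Q)
      (_ : Module O Q) (j : K →+ Q), (∀ k, π (τ k) = k) ∧ Module.Baer ℤ Q ∧ Function.Injective j ∧
        ∀ o k, o • j k = j (π o * k) := by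
  let O := WittVector 2 K
  let π : O →+* K := WittVector.constantCoeff
  let τ : K →* O := WittVector.teichmuller 2
  have h : ∀ k, π (τ k) = k := fun k => WittVector.teichmuller_coeff_zero 2 k
  haveI : CharZero O := by
    obtain ⟨p, hp⟩ := CharP.exists O
    rcases CharP.char_is_prime_or_zero O p with e | rfl
    · have : ((p : ℕ) : K) = 0 := by rw [← map_natCast π, CharP.cast_eq_zero, map_zero]
      rw [← (Nat.prime_dvd_prime_iff_eq Nat.prime_two e).1 ((CharP.cast_eq_zero_iff K 2 p).1 this)] at hp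
      exact absurd (CharP.cast_eq_zero O 2) (WittVector.p_nonzero 2 K)
    · exact CharP.charP_to_charZero O
  let L := FractionRing O
  let I : Submodule O L := Submodule.map (Algebra.linearMap O L) (RingHom.ker π)
  let j0 : O →ₗ[O] L ⧸ I := I.mkQ ∘ₗ Algebra.linearMap O L
  have hj : ∀ a b, j0 a = j0 b ↔ π a = π b := fun a b => by
    rw [← sub_eq_zero, ← map_sub, ← sub_eq_zero (a := π a), ← map_sub]
    refine (Submodule.Quotient.mk_eq_zero I).trans ⟨fun ⟨c, hc, e⟩ => ?_, fun e => ⟨_, e, rfl⟩⟩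
    exact (IsFractionRing.injective O L e : c = a - b) ▸ hc
  haveI : DivisibleBy L ℕ := AddGroup.divisibleByNatOfDivisibleByInt L
  haveI : DivisibleBy (L ⧸ I) ℕ := QuotientAddGroup.divisibleBy I.toAddSubgroup
  haveI : DivisibleBy (L ⧸ I) ℤ := AddGroup.divisibleByIntOfDivisibleByNat _
  refine ⟨O, inferInstance, inferInstance, π, τ, L ⧸ I, inferInstance, inferInstance,
    AddMonoidHom.mk' (fun k => j0 (τ k)) fun a b => ?_, h, Module.Baer.of_divisible _,
    fun a b e => by simpa only [h] using (hj _ _).1 e, fun o k => ?_⟩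
  · rw [← map_add, hj, map_add π, h, h, h]
  · change o • j0 _ = j0 _
    rw [← map_smul, hj, smul_eq_mul, map_mul, h, h]

theorem sum_pairs {α M : Type*} [Fintype α] [LinearOrder α] [AddCommMonoid M] (g : α → α → M) :
    ∑ a, ∑ b, g a b = ∑ a, g a a + ∑ p : α × α with p.1 < p.2, (g p.1 p.2 + g p.2 p.1) := by
  have e : ∀ a b, g a b = (if a = b then g a b else 0) +
      ((if a < b then g a b else 0) + if b < a then g a b else 0) := fun a b => by
    rcases lt_trichotomy a b with h | rfl | h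
    · simp [h, h.ne, h.not_gt]
    · simp
    · simp [h, h.ne', h.not_gt]
  rw [sum_congr rfl fun a _ => sum_congr rfl fun b _ => e a b]
  simp only [sum_add_distrib, sum_ite_eq, mem_univ, if_true, sum_filter, Fintype.sum_prod_type]
  rw [sum_comm (f := fun a b => if b < a then g a b else 0)]

universe u
variable {Γ : Type*} [Group Γ] [Finite Γ] {F : Type} [Field F] [Fintype F] {d : ℕ} (D : Dat Γ F d)

local notation "𝐊" => AlgebraicClosure F

include D in
theorem Dat.no_lift {O X : Type*} [CommRing O] [IsDomain O] [AddCommGroup X] [Module O X] {Y : Type u}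
    [AddCommGroup Y] [Module 𝐊 Y] [FiniteDimensional 𝐊 Y] [Nontrivial Y] {π : O →+* 𝐊} {τ : 𝐊 →* O}
    (hτ : ∀ k, π (τ k) = k) {α : Representation O Γ X} {β : Representation 𝐊 Γ Y} (fα : FPF α) (fβ : FPF β)
    (R : AddSubmonoid (X × Y)) (sm : ∀ o x y, (x, y) ∈ R → (o • x, π o • y) ∈ R)
    (act : ∀ g x y, (x, y) ∈ R → (α g x, β g y) ∈ R) (tot : ∀ y, ∃ x, (x, y) ∈ R)
    (kill : ∀ x y, (x, y) ∈ R → x + x = 0 → y = 0) : False := by
  classical
  haveI := D.charP
  letI : LinearOrder Fˣ := LinearOrder.lift' _ (Fintype.equivFin Fˣ).injective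
  obtain ⟨W, k, sim⟩ := exists_sim β
  obtain ⟨φ, v, hw⟩ := D.exists_hw sim (fβ.sub W k)
  obtain ⟨l, hl⟩ := hw.l
  let s : F →+* 𝐊 := (frobeniusEquiv 𝐊 2).symm.toRingHom.comp φ
  have hs : ∀ a, s a * s a = φ a := fun a => by
    rw [← sq, ← frobenius_def]; exact frobenius_apply_frobeniusEquiv_symm _ _ _
  have od : (Fintype.card Fˣ : 𝐊) = 1 := by
    have := D.n2
    rw [Fintype.card_units, D.hF, Nat.cast_pred (by positivity), Nat.cast_pow, Nat.cast_ofNat,
      CharTwo.two_eq_zero, zero_pow (by omega), zero_sub, CharTwo.neg_eq]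
  obtain ⟨μ, μ1⟩ := D.exists_ne
  have sumR : ∀ {ι : Type} (S : Finset ι) (f : ι → X) (g : ι → Y), (∀ i, (f i, g i) ∈ R) →
      (∑ i ∈ S, f i, ∑ i ∈ S, g i) ∈ R := fun S f g h => by
    rw [prod_mk_sum]; exact sum_mem fun i _ => h i
  set y := β D.t v with hy
  have yh : ∀ κ : Fˣ, φ κ • β (D.h κ) y = y := fun κ => by
    have : β (D.h κ⁻¹) v = φ (κ⁻¹ : Fˣ) • (v : Y) := congrArg Subtype.val (hw.vh κ⁻¹)
    rw [hy, ← End.mul_apply, ← map_mul, D.ht, map_mul, End.mul_apply, this, map_smul, smul_smul, ← map_mul,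
      Units.mul_inv, map_one, one_smul]
  obtain ⟨x0, h0⟩ := tot y
  obtain ⟨x, hx, xh⟩ : ∃ x, (x, y) ∈ R ∧ τ (φ μ) • α (D.h μ) x = x := by
    refine ⟨∑ κ : Fˣ, τ (φ κ) • α (D.h κ) x0, ?_, ?_⟩
    · have := sumR univ _ _ fun κ : Fˣ => sm (τ (φ κ)) _ _ (act (D.h κ) _ _ h0)
      simp only [hτ, yh, sum_const, card_univ] at this
      rwa [← Nat.cast_smul_eq_nsmul 𝐊, od, one_smul] at this
    · rw [map_sum, smul_sum]
      exact Fintype.sum_equiv (Equiv.mulLeft μ) _ _ fun κ => by simp [smul_smul]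
  let T : Fˣ →* O := τ.comp (s.toMonoidHom.comp ((Units.coeHom F).comp invMonoidHom))
  have hT : ∀ a, π (T a) = s (a⁻¹ : Fˣ) := fun a => hτ _
  have z0 : D.z 0 = 1 := by simpa using D.zadd 0 0
  have e1 : ∑ a : Fˣ, T a • α (D.z a) x = 0 := fα _ (D.h_odd μ) (D.h_ne μ1) _ (by
    rw [map_sum]
    refine Fintype.sum_equiv (Equiv.mulLeft (μ ^ 2)) _ _ fun a => ?_
    have : T (μ ^ 2) * τ (φ μ) = 1 := by
      rw [← hs, sq, map_mul, map_mul τ, mul_mul_mul_comm]
      simp [T, ← map_mul]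
    rw [map_smul, ← End.mul_apply, ← map_mul, D.hz, map_mul, End.mul_apply, Equiv.coe_mulLeft, map_mul]
    nth_rewrite 2 [← xh]
    rw [map_smul, smul_smul, mul_right_comm, this, one_mul, Units.val_mul, Units.val_pow_eq_pow_val])
  have e2 : ∑ a : Fˣ, ∑ b : Fˣ, (T a * T b) • α (D.z (a + b)) x = 0 := sum_eq_zero fun a _ => by
    have := congrArg (fun w => T a • α (D.z a) w) e1
    simpa only [map_sum, smul_sum, map_smul, smul_smul, map_zero, smul_zero, D.zadd, map_mul, End.mul_apply]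
      using this
  have e3 : ∑ a, T a * T a = 0 := sum_hom_units_eq_zero (T * T) fun e => μ1 (by
    have := congrArg π (DFunLike.congr_fun e μ)
    rw [MonoidHom.one_apply] at this
    rw [MonoidHom.mul_apply, map_mul, hT, hs, map_one, map_eq_one_iff φ φ.injective] at this
    exact inv_eq_one.1 (Units.ext this))
  rw [sum_pairs] at e2
  simp only [CharTwo.add_self_eq_zero, z0, map_one, End.one_apply, ← sum_smul, e3, zero_smul, zero_add] at e2
  rw [sum_add_distrib, sum_congr rfl (g := fun p => (T p.1 * T p.2) • α (D.z (p.1 + p.2)) x)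
    (f := fun p : Fˣ × Fˣ => (T p.2 * T p.1) • α (D.z (p.2 + p.1)) x) fun p _ => by rw [mul_comm, add_comm]] at e2
  have e4 := kill _ _ (sumR _ _ _ fun p : Fˣ × Fˣ => sm (T p.1 * T p.2) _ _ (act (D.z (p.1 + p.2)) _ _ hx)) e2
  have e5 : ∑ p : Fˣ × Fˣ with p.1 < p.2, π (T p.1 * T p.2) • β.subrepresentation W k (D.z (p.1 + p.2) * D.t) v
      = 0 := Subtype.ext (by rw [AddSubmonoidClass.coe_finsetSum, ZeroMemClass.coe_zero, ← e4]; simp [hy])
  have e6 := congrArg (fun w => l (β.subrepresentation W k D.t⁻¹ w)) e5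
  simp only [map_sum, map_smul, map_zero, ← End.mul_apply, ← map_mul, hl, ← mul_assoc, Dat.c, D.cz] at e6
  have e7 := sum_pairs fun a b : Fˣ => s a * s (b⁻¹ : Fˣ)
  rw [← sum_mul_sum, show ∑ a : Fˣ, s a = 0 from sum_hom_units_eq_zero
    (s.toMonoidHom.comp (Units.coeHom F)) (fun e => μ1 (Units.ext
    ((map_eq_one_iff s s.injective).1 (DFunLike.congr_fun e μ)))), zero_mul] at e7
  simp only [← map_mul, Units.mul_inv, map_one, sum_const, card_univ, nsmul_eq_mul, od, mul_one] at e7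
  rw [sum_congr rfl (g := fun p : Fˣ × Fˣ => π (T (p.1 * p.2)) • φ (p.1 + p.2)) fun p _ => ?_, e6] at e7
  · simp at e7
  · rw [map_mul T, map_mul π, hT, hT, map_add, ← hs, ← hs, smul_eq_mul]
    have := (map_ne_zero s).2 p.1.ne_zero
    have := (map_ne_zero s).2 p.2.ne_zero
    simp only [map_mul, Units.val_inv_eq_inv_val, map_inv₀]
    field_simp

end CF.HM
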