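/-
The theorem of Higman and Martineau: a normal `2`-subgroup with quotient `SL₂(2ⁿ)` or `Sz(2ⁿ)` on which the
elements of odd order act without fixed points is elementary abelian.
-/
import Cfsg.Agent.HM.Lift
set_option autoImplicit false
set_option linter.unusedSectionVars false

namespace CF.HM
open Module Subgroup
open scoped commutatorElement

variable {G : Type*} [Group G]

/-- conjugation action on homomorphisms from a normal subgroup -/
def homRep (O Q : Type*) [CommRing O] [AddCommGroup Q] [Module O Q] (A : Subgroup G) [A.Normal] :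
    Representation O G (Additive A →+ Q) where
  toFun g :=
    { toFun := fun φ => φ.comp (MonoidHom.toAdditive (MulAut.conjNormal g⁻¹ : MulAut A).toMonoidHom)
      map_add' := fun _ _ => rfl
      map_smul' := fun _ _ => rfl }
  map_one' := by ext φ a; simp
  map_mul' g h := by ext φ a; simp

variable {O Q : Type*} [CommRing O] [AddCommGroup Q] [Module O Q] {A N : Subgroup G} [A.Normal] [N.Normal]

theorem homRep_apply (g : G) (φ : Additive A →+ Q) (a : A) :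
    homRep O Q A g φ (.ofMul a) = φ (.ofMul (MulAut.conjNormal g⁻¹ a)) := rfl

variable [Finite G]

/-- elements of odd order act without fixed points on `A` -/
def Fr (A : Subgroup G) : Prop := ∀ g : G, Odd (orderOf g) → g ≠ 1 → ∀ a ∈ A, g * a = a * g → a = 1

theorem Fr.fpf (h : Fr A) : FPF (homRep O Q A) := fun g o g1 φ e => by
  have inj : Function.Injective fun a : A => a⁻¹ * MulAut.conjNormal g⁻¹ a := fun a b k => by
    have k' := congrArg Subtype.val k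
    simp only [coe_mul, coe_inv, MulAut.conjNormal_apply, inv_inv] at k'
    refine Subtype.ext (eq_of_mul_inv_eq_one (h g o g1 _ (mul_mem a.2 (inv_mem b.2)) ?_))
    calc g * (a * (b : G)⁻¹) = g * a * ((b : G)⁻¹ * (g⁻¹ * b * g)) * g⁻¹ * (b : G)⁻¹ * g := by group
      _ = _ := by rw [← k']; group
  ext a
  obtain ⟨a, rfl⟩ := Finite.surjective_of_injective inj a
  change φ (-Additive.ofMul a + Additive.ofMul (MulAut.conjNormal g⁻¹ a)) = 0
  rw [map_add, map_neg, ← homRep_apply (O := O), e, neg_add_cancel]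

theorem FPF.ofQuotient {V : Type*} [AddCommGroup V] [Module O V] {σ : Representation O G V} (h : FPF σ)
    (hN : IsPGroup 2 N) [Representation.IsTrivial (σ.comp N.subtype)] : FPF (σ.ofQuotient N) := by
  intro γ o g1 v hv
  obtain ⟨g, rfl⟩ := QuotientGroup.mk_surjective γ
  obtain ⟨e, he⟩ := hN ⟨g ^ orderOf (g : G ⧸ N), (QuotientGroup.eq_one_iff _).1 (by simp)⟩
  obtain ⟨m, hm⟩ := exists_pow_eq_self_of_coprime (x := (g : G ⧸ N)) (n := 2 ^ e)
    ((Nat.coprime_two_left.2 o).pow_left e)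
  have k : ((g ^ 2 ^ e) ^ m : G) = (g : G ⧸ N) := by simpa using hm
  refine h ((g ^ 2 ^ e) ^ m) (o.of_dvd_nat (orderOf_dvd_of_pow_eq_one ?_)) (fun e => g1 (by rw [← k, e]; rfl)) v
    (by rw [← k] at hv; exact hv)
  rw [pow_right_comm, pow_right_comm g, show (g ^ orderOf (g : G ⧸ N)) ^ 2 ^ e = 1 from congrArg Subtype.val he,
    one_pow]

theorem finite_hom (K : Type*) [Field K] (A : Type*) [Finite A] [Group A] :
    FiniteDimensional K (Additive A →+ K) :=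
  Module.Finite.of_injective (⟨⟨DFunLike.coe, fun _ _ => rfl⟩, fun _ _ => rfl⟩ : _ →ₗ[K] (Additive A → K))
    DFunLike.coe_injective

theorem exists_hom (K : Type*) [Field K] [CharP K 2] {A : Type*} [Finite A] [Group A] [Nontrivial A]
    (h : IsPGroup 2 A) : ∃ φ : Additive A →+ K, φ ≠ 0 := by
  classical
  obtain ⟨n, n0, hn⟩ := h.nontrivial_iff_card.1 ‹_›
  obtain ⟨n, rfl⟩ := Nat.exists_eq_succ_of_ne_zero n0.ne'
  obtain ⟨H, hH⟩ := Sylow.exists_subgroup_card_pow_prime (G := A) 2 (n := n) (hn ▸ pow_dvd_pow 2 n.le_succ)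
  have i : H.index = 2 := Nat.eq_of_mul_eq_mul_left (pow_pos two_pos n) (by
    rw [← hH, card_mul_index, hn, hH, pow_succ])
  obtain ⟨a, ha⟩ := SetLike.exists_of_lt (lt_top_iff_ne_top.2 fun e : H = ⊤ => by simp [e] at i)
  refine ⟨AddMonoidHom.mk' (fun a => if a.toMul ∈ H then 0 else 1) fun a b => ?_, fun e => ?_⟩
  · rw [toMul_add]
    by_cases x : a.toMul ∈ H <;> by_cases y : b.toMul ∈ H <;>
      simp [mul_mem_iff_of_index_two i, x, y, CharTwo.add_self_eq_zero]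
  · simpa [ha.2] using DFunLike.congr_fun e (.ofMul a)

instance triv (N : Subgroup G) [N.Normal] : Representation.IsTrivial ((homRep O Q N).comp N.subtype) :=
  ⟨fun g => by
    ext φ a
    change φ (-Additive.ofMul g + Additive.ofMul a + - -Additive.ofMul g) = φ (Additive.ofMul a)
    simp⟩

variable {F : Type} [Field F] [Fintype F] {d : ℕ}

local notation "𝐊" => AlgebraicClosure F

theorem comm (D : Dat (G ⧸ N) F d) (hN : IsPGroup 2 N) (f : Fr N) : ⁅N, N⁆ = ⊥ := by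
  by_contra ne
  haveI := D.charP
  haveI := (nontrivial_iff_ne_bot _).2 ne
  have le : ⁅N, N⁆ ≤ N := commutator_le_left N N
  obtain ⟨φ0, h0⟩ := exists_hom 𝐊 (hN.to_le le)
  haveI : Nontrivial (Additive ↥⁅N, N⁆ →+ 𝐊) := ⟨⟨_, _, h0⟩⟩
  obtain ⟨φ, -, h1, h2⟩ := CF.Perm.exists_fixed_vector hN ((homRep 𝐊 𝐊 ⁅N, N⁆).comp N.subtype) ⊤
    (fun _ _ _ => trivial) top_ne_bot
  let V := Representation.invariants ((homRep 𝐊 𝐊 ⁅N, N⁆).comp N.subtype)
  have iv : ∀ g, V ≤ V.comap (homRep 𝐊 𝐊 ⁅N, N⁆ g) := fun g ψ hψ n => by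
    have := congrArg (homRep 𝐊 𝐊 ⁅N, N⁆ g) (hψ (MulAut.conjNormal g⁻¹ n))
    rw [MonoidHom.comp_apply, ← End.mul_apply, ← map_mul] at this
    rw [MonoidHom.comp_apply, ← End.mul_apply, ← map_mul, ← this]
    simp [mul_assoc]
  haveI : Representation.IsTrivial (((homRep 𝐊 𝐊 ⁅N, N⁆).subrepresentation V iv).comp N.subtype) :=
    ⟨fun g => LinearMap.ext fun ψ => Subtype.ext (ψ.2 g)⟩
  haveI := finite_hom 𝐊 N
  haveI := finite_hom 𝐊 ↥⁅N, N⁆
  let c : N → N → Additive ↥⁅N, N⁆ := fun v w => .ofMul ⟨⁅v.1, w.1⁆, commutator_mem_commutator v.2 w.2⟩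
  have cj : ∀ (ψ : V) (n : N) (a : Additive ↥⁅N, N⁆), ψ.1 (.ofMul (MulAut.conjNormal (n : G) a.toMul)) = ψ.1 a :=
    fun ψ n a => by
      have := DFunLike.congr_fun (ψ.2 n⁻¹) a
      change ψ.1 (.ofMul (MulAut.conjNormal (n : G)⁻¹⁻¹ a.toMul)) = _ at this
      rwa [inv_inv] at this
  let B : V →ₗ[𝐊] Additive N →+ Additive N →+ 𝐊 :=
    { toFun := fun ψ => AddMonoidHom.mk' (fun v => AddMonoidHom.mk' (fun w => ψ.1 (c v.toMul w.toMul))
        fun a b => by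
          rw [← cj ψ a.toMul (c v.toMul b.toMul), ← map_add]
          exact congrArg ψ.1 (Subtype.ext (commutatorElement_mul_right_eq_mul_conj _ _ _ |>.trans (by
            rw [mul_assoc, mul_assoc, ← mul_assoc (a.toMul : G)]; rfl))))
        fun a b => AddMonoidHom.ext fun w => by
          change ψ.1 _ = ψ.1 _ + ψ.1 _
          rw [add_comm (ψ.1 _), ← cj ψ a.toMul (c b.toMul w.toMul), ← map_add]
          exact congrArg ψ.1 (Subtype.ext (commutatorElement_mul_left_eq_conj_mul _ _ _))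
      map_add' := fun _ _ => rfl
      map_smul' := fun _ _ => rfl }
  let C : (Additive N →+ Additive N →+ 𝐊) →ₗ[𝐊] Dual 𝐊 (Additive N →+ 𝐊) →ₗ[𝐊] Additive N →+ 𝐊 :=
    LinearMap.mk₂ 𝐊 (fun β b => b.toAddMonoidHom.comp β) (fun _ _ _ => by ext; simp) (fun _ _ _ => by ext; simp)
      (fun _ _ _ => rfl) fun _ _ _ => rfl
  have fy := (f.fpf (O := 𝐊) (Q := 𝐊)).ofQuotient hN
  refine D.not_tri (T := (C ∘ₗ B).compr₂ (Dual.eval 𝐊 _)) ⟨fun e => h1 ?_, fun γ ψ b a => ?_⟩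
    (((Fr.fpf fun g o g1 a ha => f g o g1 a (le ha)).sub V iv).ofQuotient hN) fy.dual fy.dual
  · let ev : N → Dual 𝐊 (Additive N →+ 𝐊) := fun n => ⟨⟨fun ψ => ψ (.ofMul n), fun _ _ => rfl⟩, fun _ _ => rfl⟩
    have k : ⁅N, N⁆ ≤ (AddMonoidHom.toMultiplicativeRight φ).ker.map ⁅N, N⁆.subtype :=
      commutator_le.2 fun v hv w hw => ⟨⟨_, commutator_mem_commutator hv hw⟩,
        congr($e ⟨φ, h2⟩ (ev ⟨w, hw⟩) (ev ⟨v, hv⟩)), rfl⟩
    ext a
    obtain ⟨b, hb, e⟩ := k a.2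
    rw [← Subtype.ext e]; exact hb
  · obtain ⟨g, rfl⟩ := QuotientGroup.mk_surjective γ
    change a (homRep 𝐊 𝐊 N g⁻¹ _) = a _
    congr 1
    ext v
    change b (homRep 𝐊 𝐊 N g⁻¹ _) = b _
    congr 1
    ext w
    refine congrArg ψ.1 (Subtype.ext ?_)
    change g⁻¹ * ⁅g⁻¹⁻¹ * v * g⁻¹⁻¹⁻¹, g⁻¹⁻¹ * w * g⁻¹⁻¹⁻¹⁆ * g⁻¹⁻¹ = ⁅(v : G), (w : G)⁆
    simp [commutatorElement_def, mul_assoc]

theorem sq_eq_one (D : Dat (G ⧸ N) F d) (hN : IsPGroup 2 N) (f : Fr N) : ∀ x ∈ N, x * x = 1 := by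
  haveI := D.charP
  have ab : ∀ a ∈ N, ∀ b ∈ N, a * b = b * a := fun a ha b hb =>
    commutator_eq_bot_iff_le_centralizer.1 (comm D hN f) hb a ha
  let M : Subgroup G :=
    { carrier := {y | ∃ x ∈ N, x * x = y}
      one_mem' := ⟨1, N.one_mem, mul_one 1⟩
      mul_mem' := by
        rintro _ _ ⟨a, ha, rfl⟩ ⟨b, hb, rfl⟩
        exact ⟨a * b, N.mul_mem ha hb, by rw [mul_assoc, ← mul_assoc b, ab b hb a ha]; simp only [mul_assoc]⟩
      inv_mem' := by rintro _ ⟨a, ha, rfl⟩; exact ⟨a⁻¹, N.inv_mem ha, (mul_inv_rev _ _).symm⟩ }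
  haveI : M.Normal := ⟨by
    rintro _ ⟨a, ha, rfl⟩ g; exact ⟨_, Normal.conj_mem ‹_› a ha g, by simp [mul_assoc]⟩⟩
  have le : M ≤ N := by rintro _ ⟨a, ha, rfl⟩; exact N.mul_mem ha ha
  by_contra! ne
  obtain ⟨x, hx, ne⟩ := ne
  haveI : Nontrivial M := ⟨⟨⟨_, x, hx, rfl⟩, 1, fun e => ne (congrArg Subtype.val e)⟩⟩
  obtain ⟨φ0, h0⟩ := exists_hom 𝐊 (hN.to_le le)
  haveI : Nontrivial (Additive M →+ 𝐊) := ⟨⟨_, _, h0⟩⟩
  haveI := finite_hom 𝐊 M
  haveI : Representation.IsTrivial ((homRep 𝐊 𝐊 M).comp N.subtype) := ⟨fun g => by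
    ext φ a
    refine congrArg φ (Subtype.ext ?_)
    change (g : G)⁻¹ * a * (g : G)⁻¹⁻¹ = a
    simp [mul_assoc, ab _ (le a.2) _ g.2]⟩
  obtain ⟨O, _, _, π, τ, Q, _, _, j, h1, h2, h3, h4⟩ := exists_lift 𝐊
  haveI : IsMulCommutative N := ⟨⟨fun a b => Subtype.ext (ab _ a.2 _ b.2)⟩⟩
  haveI : IsMulCommutative M := ⟨⟨fun a b => Subtype.ext (ab _ (le a.2) _ (le b.2))⟩⟩
  refine D.no_lift h1 ((f.fpf (O := O) (Q := Q)).ofQuotient hN)
    ((Fr.fpf (A := M) (O := 𝐊) (Q := 𝐊) fun g o g1 a ha => f g o g1 a (le ha)).ofQuotient hN)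
    { carrier := {p | ∀ a : M, p.1 (.ofMul (inclusion le a)) = j (p.2 (.ofMul a))}
      zero_mem' := fun a => (map_zero j).symm
      add_mem' := fun h k a => by simp [h a, k a] } (fun o x y h a => ?_) (fun γ x y h a => ?_) (fun y => ?_)
    fun x y h e => ?_
  · simp [h a, h4]
  · obtain ⟨g, rfl⟩ := QuotientGroup.mk_surjective γ
    exact h (MulAut.conjNormal g⁻¹ a)
  · open scoped IsMulCommutative in
    obtain ⟨x, hx⟩ := h2.extension_property_addMonoidHom (MonoidHom.toAdditive (inclusion le))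
      (inclusion_injective le) (j.comp y)
    exact ⟨x, fun a => DFunLike.congr_fun hx (.ofMul a)⟩
  · ext ⟨_, a, ha, rfl⟩
    refine h3 (((h _).symm.trans ?_).trans (map_zero j).symm)
    exact (map_add x (.ofMul ⟨a, ha⟩) (.ofMul ⟨a, ha⟩)).trans (DFunLike.congr_fun e _)

end CF.HM
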