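/-
The models: `SL₂(2ⁿ)` and `Sz(2ⁿ)`.
-/
import Cfsg.Agent.HM.Grp
import Cfsg.Agent.CIT.App
set_option autoImplicit false
set_option linter.unusedSectionVars false

namespace CF.HM
open Matrix CF.BN.Suz
open scoped MatrixGroups

variable {Γ : Type*} [Group Γ] [Finite Γ] {F : Type} [Field F] [Fintype F]

theorem dat_sl {n : ℕ} (n2 : 2 ≤ n) (hF : Fintype.card F = 2 ^ n) (e : Γ ≃* SL(2, F)) : Nonempty (Dat Γ F 2) := by
  haveI : CharP F 2 := by
    obtain ⟨n, rfl⟩ := Nat.exists_eq_add_of_le n2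
    exact charP_of_card hF
  let ρ : Γ →* Matrix (Fin 2) (Fin 2) F := SpecialLinearGroup.coeMonoidHom.comp e.toMonoidHom
  have inj : Function.Injective ρ := Subtype.val_injective.comp e.injective
  have det : ∀ g, ρ g 0 0 * ρ g 1 1 - ρ g 0 1 * ρ g 1 0 = 1 := fun g => (det_fin_two _).symm.trans (e g).2
  have ex : ∀ M : Matrix (Fin 2) (Fin 2) F, M.det = 1 → ∃ g, ρ g = M := fun M h =>
    ⟨e.symm ⟨M, h⟩, congrArg Subtype.val (e.apply_symm_apply _)⟩
  choose z hz using fun a : F => ex !![1, a; 0, 1] (by simp)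
  choose h hh using fun κ : Fˣ => ex (diagonal ![κ, (κ⁻¹ : Fˣ)]) (by simp)
  obtain ⟨t, ht⟩ := ex !![0, -1; 1, 0] (by simp)
  obtain ⟨t', ht'⟩ := ex !![0, 1; -1, 0] (by simp)
  obtain rfl : t' = t⁻¹ := eq_inv_of_mul_eq_one_left (inj (by rw [map_mul, ht, ht', map_one, one_fin_two]; simp))
  obtain ⟨x, hx⟩ := ex !![0, -1; 1, -1] (by simp)
  have zadd : ∀ a b, z (a + b) = z a * z b := fun a b => inj (by simp [hz, add_comm])
  let Z : Multiplicative F →* Γ := MonoidHom.mk' (fun a => z a.toAdd) fun a b => zadd _ _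
  have Zi : Function.Injective Z := fun a b k => by
    have := congrArg (fun g => ρ g 0 1) k
    simpa [Z, hz] using this
  let H : Fˣ →* Γ := MonoidHom.mk' h fun a b => inj (by
    rw [map_mul, hh, hh, hh, diagonal_mul_diagonal]; congr 1; ext i; fin_cases i <;> simp [mul_comm])
  have hz' : ∀ (κ : Fˣ) a, H κ * z a = z (κ ^ 2 * a) * H κ := fun κ a => inj (by
    ext i j; fin_cases i <;> fin_cases j <;> simp [H, hh, hz, mul_apply, sq, mul_right_comm])
  have cz : ∀ a, ρ (t⁻¹ * z a * t) 1 0 = a := fun a => by simp [ht, ht', hz, CharTwo.neg_eq]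
  have cU : Nat.card Z.range = 2 ^ n := by
    rw [← Nat.card_congr (Z.ofInjective Zi).toEquiv, Nat.card_eq_fintype_card, Fintype.card_multiplicative, hF]
  refine ⟨{
    ρ := ρ, i0 := 0, i1 := 1, n := n, U := Z.range, h := H, t := t, ω := fun j κ => ![(κ : F), (κ⁻¹ : Fˣ)] j
    x := x, p := 3, z := z, n2 := n2, hF := hF, pU := IsPGroup.of_card cU, cU := cU
    hU := ?_, ht := fun κ => inj ?_, bru := fun g => ?_, col := ?_, row := ?_, ρh := hh, ω0 := fun _ => rfl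
    ρt := by simp [ht], ne := by decide, sep := ?_, p3 := le_rfl, po := by decide, xp := inj ?_
    eig := fun τ h1 h2 => ?_, zadd := zadd, hz := hz', cz := cz, w1 := fun j => ?_, w2 := fun j => ?_ }⟩
  · rintro κ _ ⟨a, rfl⟩
    refine ⟨.ofAdd ((κ⁻¹ : Fˣ) ^ 2 * a.toAdd), Eq.symm ?_⟩
    change _ * z _ * _ = z _
    rw [← map_inv, hz', mul_assoc, ← map_mul, inv_mul_cancel, map_one, mul_one]; rfl
  · ext i j; fin_cases i <;> fin_cases j <;> simp [H, hh, ht, mul_apply]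
  · have d := det g
    by_cases c : ρ g 1 0 = 0
    · rw [c, mul_zero, sub_zero] at d
      refine .inl ⟨_, ⟨.ofAdd (ρ g 0 1 * ρ g 0 0), rfl⟩, Units.mk0 _ (left_ne_zero_of_mul_eq_one d), inj ?_⟩
      have := left_ne_zero_of_mul_eq_one d
      ext i j; fin_cases i <;> fin_cases j <;> simp [H, Z, hh, hz, mul_apply, c, this]
      exact eq_inv_of_mul_eq_one_right d
    · refine .inr ⟨_, ⟨.ofAdd (ρ g 0 0 / ρ g 1 0), rfl⟩, _, ⟨.ofAdd (ρ g 1 1 * ρ g 1 0), rfl⟩,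
        Units.mk0 _ c, inj ?_⟩
      ext i j; fin_cases i <;> fin_cases j <;> simp [H, Z, hh, hz, ht, mul_apply, c]
      field_simp
      linear_combination -d
  · rintro _ ⟨a, rfl⟩ j; fin_cases j <;> simp [Z, hz, one_apply]
  · rintro _ ⟨a, rfl⟩ j; fin_cases j <;> simp [Z, hz, one_apply]
  · rintro _ ⟨a, rfl⟩ k
    exact (cz _).trans_ne fun e => k (by rw [show a = 1 from e, map_one])
  · rw [map_pow, hx, map_one, one_fin_two]; simp [pow_succ]
  · refine mul_left_cancel₀ (sub_ne_zero.2 h2) ?_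
    rw [hx, det_fin_two, mul_zero]
    simp [-mul_eq_zero]
    linear_combination h1
  · have := Nat.pow_le_pow_right two_pos n2
    obtain ⟨a, a0, a1⟩ := exists_ne_zero_ne_one (F := F) (by omega)
    exact ⟨Units.mk0 a a0, by fin_cases j <;> simpa⟩
  · fin_cases j <;> simp

theorem dat_sz {m : ℕ} (hm : 1 ≤ m) (hF : Fintype.card F = 2 ^ (2 * m + 1)) {T : Tits F} (D : SzData T Γ) :
    Nonempty (Dat Γ F 4) := by
  haveI := T.charP
  let θ := RingEquiv.ofBijective T.θ (Finite.injective_iff_bijective.1 T.θ.injective)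
  have hθ : ∀ a, T.θ (θ.symm a) = a := θ.apply_symm_apply
  let ν : Fˣ →* Fˣ := Units.map T.θ.toMonoidHom / MonoidHom.id _
  have hν : ∀ κ : Fˣ, (ν κ : F) = T.θ κ / κ := fun κ => by simp [ν]
  have θ0 : ∀ κ : Fˣ, T.θ κ ≠ 0 := fun κ => mt T.θ_eq_zero.1 κ.ne_zero
  have sν : ∀ t : Fˣ, ∃ κ, ν κ = t := fun t => ⟨t * Units.mk0 _ (θ0 t), Units.ext (by
    have := θ0 t
    simp [hν, T.θθ]; field_simp)⟩
  have cz : ∀ a b, D.ρ (D.w⁻¹ * D.u a b * D.w) 3 0 = T.f a b := fun a b => by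
    rw [D.w_inv, map_mul, map_mul, D.ρ_w, D.ρ_u, (mul_wM_apply _ _).1, (wM_mul_apply _ _).2.2.2]; rfl
  refine ⟨{
    ρ := D.ρ, i0 := 0, i1 := 3, n := 2 * m + 1, U := D.U, h := D.h.comp ν, t := D.w
    ω := fun j κ => ![(κ : F), T.θ κ / κ, κ / T.θ κ, (κ : F)⁻¹] j
    x := D.u 0 1 * D.w, p := 5, z := fun a => D.u 0 (θ.symm a), n2 := by omega, hF := hF, pU := D.isPGroup_U
    cU := by rw [D.card_U, Nat.card_eq_fintype_card, hF, ← pow_mul, mul_comm, pow_mul]; rfl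
    hU := fun κ u hu => by simpa using D.conj_mem_U (inv_mem (D.h_mem_B (ν κ))) hu
    ht := fun κ => by simp [D.h_mul_w], bru := fun g => ?_, col := ?_, row := ?_, ρh := fun κ => ?_
    ω0 := fun _ => rfl, ρt := by simp [D.ρ_w, wM], ne := by decide, sep := ?_, p3 := by decide, po := by decide
    xp := D.inj ?_, eig := fun τ h1 h2 => ?_, zadd := fun a b => by rw [D.u_zero_mul, map_add]
    hz := fun κ a => ?_, cz := fun a => by simp [cz, Tits.f_def, hθ], w1 := fun j => ?_, w2 := fun j => ?_ }⟩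
  · by_cases c : g ∈ D.B
    · obtain ⟨a, b, t, rfl⟩ := D.mem_B.1 c
      obtain ⟨κ, rfl⟩ := sν t
      exact .inl ⟨_, D.u_mem_U a b, κ, rfl⟩
    · obtain ⟨a, b, t, k⟩ := D.exists_big c
      obtain ⟨κ, rfl⟩ := sν t
      exact .inr ⟨_, D.u_mem_U _ _, _, D.u_mem_U a b, κ, k⟩
  · intro u hu j
    obtain ⟨a, b, rfl⟩ := D.mem_U.1 hu
    fin_cases j <;> simp [D.ρ_u, Tits.uM, one_apply]
  · intro u hu j
    obtain ⟨a, b, rfl⟩ := D.mem_U.1 hu
    fin_cases j <;> simp [D.ρ_u, Tits.uM, one_apply]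
  · have := θ0 κ
    have e : T.θ κ / κ * T.θ (T.θ κ / κ) = κ := by rw [map_div₀, T.θθ]; field_simp
    rw [MonoidHom.comp_apply, D.ρ_h, Tits.hM, hν, e]
    ext i j; fin_cases i <;> fin_cases j <;> simp
  · intro u hu k
    obtain ⟨a, b, rfl⟩ := D.mem_U.1 hu
    exact (cz a b).trans_ne fun e => k (D.u_eq_one.2 (T.f_eq_zero.1 e))
  · rw [map_pow, map_mul, D.ρ_u, D.ρ_w, map_one]
    ext i j; fin_cases i <;> fin_cases j <;>
      simp [pow_succ, Tits.uM, wM, Tits.f_def, CharTwo.add_self_eq_zero]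
  · refine mul_left_cancel₀ (sub_ne_zero.2 h2) ?_
    rw [map_mul, D.ρ_u, D.ρ_w, show (T.uM 0 1 * wM F).map (algebraMap F (AlgebraicClosure F)) - scalar (Fin 4) τ =
      !![1 - τ, 1, 0, 1; 1, -τ, 1, 0; 0, 1, -τ, 0; 1, 0, 0, -τ] by
        ext i j; fin_cases i <;> fin_cases j <;> simp [Tits.uM, wM, Tits.f_def]]
    simp [det_succ_row_zero, Fin.sum_univ_succ, Fin.succAbove]
    grind
  · have := θ0 κ
    rw [MonoidHom.comp_apply, D.h_mul_u, mul_zero]
    congr 2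
    refine T.θ.injective ?_
    simp only [map_mul, hν, hθ, T.θθ, map_pow, map_div₀]
    field_simp
  · obtain ⟨a, ha⟩ := T.exists_θ_ne_sq (exists_ne_zero_ne_one (by have := eight_le_card hm hF; omega))
    have a0 : a ≠ 0 := by rintro rfl; simp at ha
    have a1 : a ≠ 1 := by rintro rfl; simp at ha
    have a2 : T.θ a ≠ a := fun e => a1 (mul_left_cancel₀ a0 (by rw [← sq, ← T.θθ, e, e, mul_one]))
    refine ⟨Units.mk0 a a0, ?_⟩
    fin_cases j <;> simp [a1, div_eq_one_iff_eq, a0, a2, a2.symm, T.θ_eq_zero]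
  · fin_cases j
    · simp
    · exact .inr (.inr ⟨T.θ, .inl fun κ => by simp⟩)
    · exact .inr (.inr ⟨T.θ, .inr fun κ => by simp [θ0]⟩)
    · simp

end CF.HM
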